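import Cfsg.Agent.H597.E8Form
import Cfsg.Agent.ChevalleyStructure.LieAut

/-!
# The centre of the Lie algebra of type `E₈` over a field is zero (helper365, S5925, box Q)

`cen` : `ad u = 0 → u = 0`; needs that no coroot is zero in the field, here for `F₃`.
-/

set_option autoImplicit false
set_option maxRecDepth 100000

namespace Cfsg.Agent.H365.E83.Cen

open Cfsg Cfsg.Lie
open Matrix hiding J
open Cfsg.Agent.ChevalleyStructure.LieAbs Cfsg.Agent.ChevalleyStructure.LieAut
open Cfsg.Agent.ChevalleyStructure.Ring Cfsg.Agent.ChevalleyStructure.JacMain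
open Cfsg.Agent.ChevalleyStructure.Columns
open Cfsg.Agent.H597.E8Form

variable {K : Type*} [Field K]

/-- the entry `(h_i, e_s)` of `ad h_j` -/
theorem ent_h (j i : Fin chevE8.rank) (s : Fin chevE8.nroots) : adR chevE8 K (Sum.inl j) (Sum.inl i) (Sum.inr s) = 0 := by
  have h : adA chevE8 (Sum.inl j) (Sum.inl i) (Sum.inr s) = 0 := by
    rw [adA_inl]
    exact Matrix.diagonal_apply_ne _ (by simp)
  rw [adR_def, Matrix.map_apply, h, map_zero]

/-- the entry `(h_i, e_{-s})` of `ad e_r` -/
theorem ent_e (r s : Fin chevE8.nroots) (i : Fin chevE8.rank) :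
    adR chevE8 K (Sum.inr r) (Sum.inl i) (Sum.inr (rv s)) = if r = s then ((cor chevE8 s.val i.val : ℤ) : K) else 0 := by
  have h : adA chevE8 (Sum.inr r) (Sum.inl i) (Sum.inr (rv s)) = if r = s then cor chevE8 s.val i.val else 0 := by
    rw [adA_inr, coefE_entry chevE8 r.val 1 (lt240 r)]
    show (if (rv s).val = r.val then (0 : ℤ) else if (rv s).val = chevE8.negIdx.getD r.val 0 then
      (if 1 = 1 then (chevE8.coroot.getD r.val #[]).getD i.val 0 else 0) else 0) = _
    have hr := lt240 r
    have hs := lt240 s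
    rw [neg_eq _ hr, rv_val]
    by_cases h : r = s
    · subst h
      rw [if_neg (by omega), if_pos rfl, if_pos rfl, if_pos rfl]
      rfl
    · have h' : r.val ≠ s.val := fun e => h (Fin.ext e)
      rw [if_neg h]
      by_cases h1 : 239 - s.val = r.val
      · rw [if_pos h1]
      · rw [if_neg h1, if_neg (by omega)]
  rw [adR_def, Matrix.map_apply, h]
  split_ifs
  · rfl
  · rw [map_zero]

/-- the diagonal entry at `e_s` of `ad h_j` -/
theorem ent_d (j : Fin chevE8.rank) (s : Fin chevE8.nroots) :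
    adR chevE8 K (Sum.inl j) (Sum.inr s) (Sum.inr s) = ((car chevE8 j.val s.val : ℤ) : K) := by
  have h : adA chevE8 (Sum.inl j) (Sum.inr s) (Sum.inr s) = car chevE8 j.val s.val := by
    rw [adA_inl]
    exact Matrix.diagonal_apply_eq _ _
  rw [adR_def, Matrix.map_apply, h]
  rfl

theorem adv_apply (u : chevE8.Idx → K) (a b : chevE8.Idx) : adv (adR chevE8 K) u a b =
    ∑ j, u (Sum.inl j) * adR chevE8 K (Sum.inl j) a b + ∑ r, u (Sum.inr r) * adR chevE8 K (Sum.inr r) a b := by
  unfold adv
  rw [Matrix.sum_apply, Fintype.sum_sum_type]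
  rfl

/-- **the centre is zero**, if no coroot vanishes in the field -/
theorem cen_of (hc : ∀ s : Fin chevE8.nroots, ∃ i : Fin chevE8.rank, ((cor chevE8 s.val i.val : ℤ) : K) ≠ 0)
    {u : chevE8.Idx → K} (h : adv (adR chevE8 K) u = 0) : u = 0 := by
  have h1 : ∀ s : Fin chevE8.nroots, u (Sum.inr s) = 0 := by
    intro s
    obtain ⟨i, hi⟩ := hc s
    have h2 := congrFun (congrFun h (Sum.inl i)) (Sum.inr (rv s))
    rw [adv_apply, Finset.sum_eq_zero (fun j _ => by rw [ent_h, mul_zero]), zero_add] at h2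
    simp only [ent_e, mul_ite, mul_zero] at h2
    rw [Finset.sum_ite_eq' Finset.univ s, if_pos (Finset.mem_univ _)] at h2
    exact (mul_eq_zero.1 h2).resolve_right hi
  have h3 : ∀ s : Fin chevE8.nroots, ∑ j : Fin chevE8.rank, u (Sum.inl j) * ((car chevE8 j.val s.val : ℤ) : K) = 0 := by
    intro s
    have h2 := congrFun (congrFun h (Sum.inr s)) (Sum.inr s)
    rw [adv_apply] at h2
    simp only [h1, zero_mul, Finset.sum_const_zero, add_zero, ent_d] at h2
    exact h2
  have h4 : ∀ j : Fin chevE8.rank, u (Sum.inl j) = 0 := by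
    let w : Fin 8 → K := fun j => u (Sum.inl j)
    have h5 : w ᵥ* (AZ.map (Int.castRingHom K)) = 0 := by
      ext k
      have hk : chevE8.simpleIdx.getD k.val 0 < 240 := by
        have : ∀ k : Fin 8, chevE8.simpleIdx.getD k.val 0 < 240 := by decide +kernel
        exact this k
      have h6 := h3 ⟨chevE8.simpleIdx.getD k.val 0, hk⟩
      have h9 : (w ᵥ* (AZ.map (Int.castRingHom K))) k = ∑ j : Fin 8, w j * AZ.map (Int.castRingHom K) j k := rfl
      rw [h9]
      exact h6
    have h7 : AZ.map (Int.castRingHom K) * BZ.map (Int.castRingHom K) = 1 := by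
      rw [← Matrix.map_mul, AZ_mul_BZ]
      exact Matrix.map_one _ (map_zero _) (map_one _)
    have h8 : w = 0 := by
      calc w = w ᵥ* (AZ.map (Int.castRingHom K) * BZ.map (Int.castRingHom K)) := by rw [h7, Matrix.vecMul_one]
        _ = 0 := by rw [← Matrix.vecMul_vecMul, h5, Matrix.zero_vecMul]
    intro j
    exact congrFun h8 j
  ext a
  rcases a with j | s
  · exact h4 j
  · exact h1 s

theorem cor_mod : ∀ r < 240, (List.range 8).any (fun i => !(decide ((cor chevE8 r i) % 3 = 0))) = true := by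
  decide +kernel

/-- **the centre of `L(E₈)` over `F₃` is zero** -/
theorem cen {u : chevE8.Idx → ZMod 3} (h : adv (adR chevE8 (ZMod 3)) u = 0) : u = 0 := by
  refine cen_of (fun s => ?_) h
  obtain ⟨i, hi, h1⟩ := List.any_eq_true.1 (cor_mod s.val (lt240 s))
  rw [List.mem_range] at hi
  refine ⟨⟨i, hi⟩, fun h2 => ?_⟩
  have h3 : (3 : ℤ) ∣ cor chevE8 s.val i := (ZMod.intCast_zmod_eq_zero_iff_dvd _ 3).1 h2
  rw [Int.emod_eq_zero_of_dvd h3] at h1
  simp at h1

end Cfsg.Agent.H365.E83.Cen
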