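import Cfsg.Agent.H597.E8Form
import Cfsg.Agent.H65.E8L.Eng
import Cfsg.Agent.H65.E8L.Dat

/-!
# The invariant form of the adjoint module of `E₈(3)` on `b_1, ..., b_4` (helper365, S5925, box Q)

`kapB` : the bilinear form of `J` (`H597.E8Form`) over `F₃`; `kapB_inv` : invariance under `E₈(3)`;
`kapB_val` : the values on the four vectors `b_i` (the powers of `Fr` in `sl₅(E₁)`).
-/

set_option autoImplicit false

namespace Cfsg.Agent.H365.E83.Form

open Cfsg Cfsg.Lie
open Matrix hiding J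
open Cfsg.Agent.H597.E8Form
open Cfsg.Agent.H65.E8L.Eng Cfsg.Agent.H65.E8L.Dat
open Cfsg.Agent.ChevalleyStructure.Columns

/-- the Chevalley group preserves `J` -/
theorem J_inv {K : Type*} [Field K] {g : GL chevE8.Idx K} (hg : g ∈ chevE8.group K) :
    (g : Matrix chevE8.Idx chevE8.Idx K).transpose * J K * (g : Matrix chevE8.Idx chevE8.Idx K) = J K := by
  unfold ChevalleyDatum.group at hg
  induction hg using Subgroup.closure_induction with
  | mem x hx =>
    obtain ⟨r, t, h⟩ := hx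
    rw [h]
    exact inv_gen r t
  | one => simp
  | mul x y _ _ hx hy =>
    rw [Units.val_mul, Matrix.transpose_mul]
    calc ((y : Matrix chevE8.Idx chevE8.Idx K)).transpose * ((x : Matrix chevE8.Idx chevE8.Idx K)).transpose * J K *
          ((x : Matrix chevE8.Idx chevE8.Idx K) * (y : Matrix chevE8.Idx chevE8.Idx K))
        = ((y : Matrix chevE8.Idx chevE8.Idx K)).transpose * (((x : Matrix chevE8.Idx chevE8.Idx K)).transpose * J K *
          (x : Matrix chevE8.Idx chevE8.Idx K)) * (y : Matrix chevE8.Idx chevE8.Idx K) := by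
          simp only [Matrix.mul_assoc]
      _ = _ := by rw [hx, hy]
  | inv x _ hx =>
    have h1 : (x : Matrix chevE8.Idx chevE8.Idx K) * ((x⁻¹ : GL chevE8.Idx K) : Matrix chevE8.Idx chevE8.Idx K) = 1 := by
      rw [← Units.val_mul, mul_inv_cancel, Units.val_one]
    calc (((x⁻¹ : GL chevE8.Idx K) : Matrix chevE8.Idx chevE8.Idx K)).transpose * J K *
          ((x⁻¹ : GL chevE8.Idx K) : Matrix chevE8.Idx chevE8.Idx K)
        = (((x⁻¹ : GL chevE8.Idx K) : Matrix chevE8.Idx chevE8.Idx K)).transpose *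
          (((x : Matrix chevE8.Idx chevE8.Idx K)).transpose * J K * (x : Matrix chevE8.Idx chevE8.Idx K)) *
          ((x⁻¹ : GL chevE8.Idx K) : Matrix chevE8.Idx chevE8.Idx K) := by rw [hx]
      _ = ((x : Matrix chevE8.Idx chevE8.Idx K) *
          ((x⁻¹ : GL chevE8.Idx K) : Matrix chevE8.Idx chevE8.Idx K)).transpose * J K *
          ((x : Matrix chevE8.Idx chevE8.Idx K) *
          ((x⁻¹ : GL chevE8.Idx K) : Matrix chevE8.Idx chevE8.Idx K)) := by
          simp only [Matrix.transpose_mul, Matrix.mul_assoc]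
      _ = J K := by rw [h1, Matrix.transpose_one, Matrix.one_mul, Matrix.mul_one]

/-- the form -/
noncomputable def kapB : V →ₗ[ZMod 3] V →ₗ[ZMod 3] ZMod 3 := Matrix.toLinearMap₂' (ZMod 3) (J (ZMod 3))

theorem kapB_apply (u v : V) : kapB u v = u ⬝ᵥ (J (ZMod 3) *ᵥ v) := Matrix.toLinearMap₂'_apply' _ _ _

theorem kapB_inv {g : GL chevE8.Idx (ZMod 3)} (hg : g ∈ chevE8.group (ZMod 3)) (u v : V) :
    kapB ((g : Matrix chevE8.Idx chevE8.Idx (ZMod 3)) *ᵥ u) ((g : Matrix chevE8.Idx chevE8.Idx (ZMod 3)) *ᵥ v) =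
      kapB u v := by
  rw [kapB_apply, kapB_apply, Matrix.mulVec_mulVec, ← Matrix.vecMul_transpose, ← Matrix.dotProduct_mulVec,
    Matrix.mulVec_mulVec, ← Matrix.mul_assoc, J_inv hg]

/-- the form on codes -/
def Jn (a b : ℕ) : ℕ :=
  if a < 8 then (if b < 8 then z3 (car chevE8 a (chevE8.simpleIdx.getD b 0)) else 0)
  else (if b < 8 then 0 else if a + b = 255 then 1 else 0)

theorem exists_cd {k : ℕ} (hk : k < 248) : ∃ i : chevE8.Idx, cd i = k := by
  by_cases h : k < 8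
  · exact ⟨Sum.inl ⟨k, h⟩, rfl⟩
  · exact ⟨Sum.inr ⟨k - 8, by show k - 8 < 240; omega⟩, by show 8 + (k - 8) = k; omega⟩

theorem Jn_ll {a b : ℕ} (ha : a < 8) (hb : b < 8) : Jn a b = z3 (car chevE8 a (chevE8.simpleIdx.getD b 0)) := by
  unfold Jn; rw [if_pos ha, if_pos hb]

theorem Jn_lr {a b : ℕ} (ha : a < 8) (hb : ¬ b < 8) : Jn a b = 0 := by
  unfold Jn; rw [if_pos ha, if_neg hb]

theorem Jn_rl {a b : ℕ} (ha : ¬ a < 8) (hb : b < 8) : Jn a b = 0 := by
  unfold Jn; rw [if_neg ha, if_pos hb]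

theorem Jn_rr {a b : ℕ} (ha : ¬ a < 8) (hb : ¬ b < 8) : Jn a b = if a + b = 255 then 1 else 0 := by
  unfold Jn; rw [if_neg ha, if_neg hb]

theorem J_cd (i j : chevE8.Idx) : J (ZMod 3) i j = ((Jn (cd i) (cd j) : ℕ) : ZMod 3) := by
  rcases i with i | s <;> rcases j with j | u
  · have e : Jn (cd (Sum.inl i)) (cd (Sum.inl j)) = z3 (car chevE8 i.val (chevE8.simpleIdx.getD j.val 0)) :=
      Jn_ll (lt8 i) (lt8 j)
    rw [J_ll, e, cast_z3]
    rfl
  · have e : Jn (cd (Sum.inl i)) (cd (Sum.inr u)) = 0 := Jn_lr (lt8 i) (by show ¬ 8 + u.val < 8; omega)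
    rw [J_lr, e, Nat.cast_zero]
  · have e : Jn (cd (Sum.inr s)) (cd (Sum.inl j)) = 0 := Jn_rl (by show ¬ 8 + s.val < 8; omega) (lt8 j)
    rw [J_rl, e, Nat.cast_zero]
  · have e : Jn (cd (Sum.inr s)) (cd (Sum.inr u)) = if (8 + s.val) + (8 + u.val) = 255 then 1 else 0 :=
      Jn_rr (by show ¬ 8 + s.val < 8; omega) (by show ¬ 8 + u.val < 8; omega)
    have hs := lt240 s
    have hu := lt240 u
    rw [e, J_rr]
    by_cases h : u = rv s
    · have h1 := congrArg Fin.val h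
      rw [rv_val] at h1
      rw [if_pos h, if_pos (by omega), Nat.cast_one]
    · rw [if_neg h, if_neg, Nat.cast_zero]
      intro h1
      exact h (Fin.ext (by rw [rv_val]; omega))

theorem kapB_bv {a b : ℕ} (ha : a < 248) (hb : b < 248) : kapB (bv a) (bv b) = ((Jn a b : ℕ) : ZMod 3) := by
  obtain ⟨i, rfl⟩ := exists_cd ha
  obtain ⟨j, rfl⟩ := exists_cd hb
  rw [bv_cd, bv_cd, kapB_apply, Matrix.mulVec_single_one, single_dotProduct, one_mul]
  exact J_cd i j

/-- the value of the form on sparse vectors -/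
def kv (l m : List (ℕ × ℕ)) : ℕ := (l.map fun a => (m.map fun b => a.2 * b.2 * Jn a.1 b.1).sum).sum

theorem spv_one' (B : V →ₗ[ZMod 3] V →ₗ[ZMod 3] ZMod 3)
    (hB : ∀ a b, a < 248 → b < 248 → B (bv a) (bv b) = ((Jn a b : ℕ) : ZMod 3)) (a : ℕ × ℕ) (ha : a.1 < 248)
    (m : List (ℕ × ℕ)) (hm : ∀ a ∈ m, a.1 < 248) :
    B (((a.2 : ℕ) : ZMod 3) • bv a.1) (spv m) = (((m.map fun b => a.2 * b.2 * Jn a.1 b.1).sum : ℕ) : ZMod 3) := by
  induction m with
  | nil =>
    have h : spv ([] : List (ℕ × ℕ)) = 0 := rfl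
    rw [h, map_zero]
    rfl
  | cons b m ih =>
    have h1 := ih fun c hc => hm c (List.mem_cons_of_mem _ hc)
    have h2 := hB a.1 b.1 ha (hm b List.mem_cons_self)
    rw [spv_cons, map_add, h1, List.map_cons, List.sum_cons, Nat.cast_add]
    refine congrArg (· + _) ?_
    have h3 : B (((a.2 : ℕ) : ZMod 3) • bv a.1) (((b.2 : ℕ) : ZMod 3) • bv b.1) =
        ((b.2 : ℕ) : ZMod 3) * (((a.2 : ℕ) : ZMod 3) * B (bv a.1) (bv b.1)) := by
      rw [map_smul, map_smul]
      rfl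
    rw [h3, h2]
    push_cast
    ring

theorem spv_two (B : V →ₗ[ZMod 3] V →ₗ[ZMod 3] ZMod 3)
    (hB : ∀ a b, a < 248 → b < 248 → B (bv a) (bv b) = ((Jn a b : ℕ) : ZMod 3)) (l : List (ℕ × ℕ))
    (hl : ∀ a ∈ l, a.1 < 248) (m : List (ℕ × ℕ)) (hm : ∀ a ∈ m, a.1 < 248) :
    B (spv l) (spv m) = ((kv l m : ℕ) : ZMod 3) := by
  induction l with
  | nil =>
    have h : spv ([] : List (ℕ × ℕ)) = 0 := rfl
    rw [h, map_zero]
    rfl
  | cons a l ih =>
    have h1 := ih fun c hc => hl c (List.mem_cons_of_mem _ hc)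
    have h2 := spv_one' B hB a (hl a List.mem_cons_self) m hm
    have h3 : kv (a :: l) m = (m.map fun b => a.2 * b.2 * Jn a.1 b.1).sum + kv l m := rfl
    rw [spv_cons, map_add, h3, Nat.cast_add, ← h1, ← h2]
    rfl

theorem kapB_spv {l m : List (ℕ × ℕ)} (hl : ∀ a ∈ l, a.1 < 248) (hm : ∀ a ∈ m, a.1 < 248) :
    kapB (spv l) (spv m) = ((kv l m : ℕ) : ZMod 3) :=
  spv_two kapB (fun _ _ ha hb => kapB_bv ha hb) l hl m hm

theorem kv_val : ((List.range 4).all fun i => (List.range 4).all fun j =>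
    Nat.beq (kv (bl.getD i []) (bl.getD j []) % 3) (if i + j = 3 then 2 else 0)) = true := by decide +kernel

theorem bl_lt : (bl.all fun l => l.all fun a => Nat.blt a.1 248) = true := by decide +kernel

theorem bl_lt' (i : ℕ) : ∀ a ∈ bl.getD i [], a.1 < 248 := by
  intro a ha
  by_cases h : i < bl.length
  · rw [List.getD_eq_getElem _ _ h] at ha
    have h1 := List.all_eq_true.1 bl_lt _ (List.getElem_mem h)
    have h2 := List.all_eq_true.1 h1 a ha
    exact Nat.le_of_ble_eq_true h2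
  · rw [List.getD_eq_default _ _ (by omega)] at ha
    simp at ha

/-- **the values** -/
theorem kapB_val (i j : Fin 4) : kapB (spv (bl.getD i.val [])) (spv (bl.getD j.val [])) =
    if i.val + j.val = 3 then -1 else 0 := by
  rw [kapB_spv (bl_lt' _) (bl_lt' _)]
  have h1 := List.all_eq_true.1 kv_val i.val (List.mem_range.2 i.isLt)
  have h2 := Nat.eq_of_beq_eq_true (List.all_eq_true.1 h1 j.val (List.mem_range.2 j.isLt))
  rw [← cast_mod, h2]
  split_ifs <;> rfl

end Cfsg.Agent.H365.E83.Form
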